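import Cfsg.Agent.FGS.CY.BigA
import Cfsg.Agent.FGS.FZ.Defs2

/-!
# Lines over fields with more than two elements: definitions

Notation: `Z = oz J`, `Q = Qy J Y = J ⊓ C(Y)`, `H = Hy G J Y = G ⊓ N(Q)`, `q = |J : Q|`.
The subgroups `h •ᶜ Z`, `h ∈ H`, are the *axes*; `h •ᶜ Z` is the fixed space of `h •ᶜ T` on `Y`.
-/

set_option autoImplicit false
open Cfsg Subgroup CL.Th CL.MSS CL.Push CL.BHS CL.B2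
open CL.CY (Wq)
open CL.FZ (P2)
open scoped commutatorElement

namespace CL.NZ

variable {X : Type*} [Group X]

/-- The local configuration over a field with more than two elements. -/
structure Nq (G B W : Subgroup X) (x : X) : Prop extends Wq B W where
  xG : x ∈ G
  xq : ∀ y ∈ B ⊓ 𝐂 W, x * y * x⁻¹ * y⁻¹ ∈ W
  tr : ∀ b ∈ B, b ∉ 𝐂 W → ∀ b' ∈ B, b' ∉ 𝐂 W → ∃ g ∈ G ⊓ 𝐍 B,
    (∀ y ∈ B ⊓ 𝐂 W, g * y * g⁻¹ * y⁻¹ ∈ W) ∧ (g * b * g⁻¹)⁻¹ * b' ∈ 𝐂 W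
  q4 : 2 < (𝐂 W).relIndex B
  jq : ¬ Jt B ≤ 𝐂 W

/-- `Q = C_J(Y)` -/
abbrev Qy (J Y : Subgroup X) : Subgroup X := J ⊓ 𝐂 Y

/-- `H = N_G(Q)` -/
abbrev Hq (G J Y : Subgroup X) : Subgroup X := G ⊓ 𝐍 (Qy J Y)

/-- A normalized pair of non-commuting modules in `J`. -/
structure Pq (J Y T : Subgroup X) : Prop where
  pg : IsPGroup 2 J
  y : Wq J Y
  t : Wq J T
  nc : ¬ Y ≤ 𝐂 T
  ey : oz (Qy J Y) = Y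
  et : oz (Qy J T) = T
  jy : Jt (Qy J Y) = Qy J Y
  jt : Jt (Qy J T) = Qy J T

/-- The global setting. -/
structure Sq (G J Y T V : Subgroup X) (x : X) : Prop extends Pq J Y T where
  JG : J ≤ G
  xG : x ∈ G
  xq : ∀ y ∈ Qy J Y, x * y * x⁻¹ * y⁻¹ ∈ Y
  tr : ∀ b ∈ J, b ∉ 𝐂 Y → ∀ b' ∈ J, b' ∉ 𝐂 Y → ∃ g ∈ G ⊓ 𝐍 J,
    (∀ y ∈ Qy J Y, g * y * g⁻¹ * y⁻¹ ∈ Y) ∧ (g * b * g⁻¹)⁻¹ * b' ∈ 𝐂 Y
  q4 : 2 < (𝐂 Y).relIndex J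
  elem : IsElementaryAbelian 2 V
  VZ : V ≤ oz J
  p2 : P2 V (G ⊓ 𝐍 V)
  sM : Group.IsSolvable (G ⊓ 𝐍 V : Subgroup X)
  good : G ⊓ 𝐍 (oz J) ≤ 𝐍 V
  xV : x ∉ 𝐍 V
  ov : ∀ P : Subgroup X, IsPGroup 2 P → J ≤ P → P ≤ Hq G J Y → Jt P = J

theorem Nq.mono {G G' B W : Subgroup X} {x : X} (c : Nq G B W x) (h : G ≤ G') : Nq G' B W x :=
  ⟨c.toWq, h c.xG, c.xq, fun b hb n b' hb' n' =>
    let ⟨g, hg, e⟩ := c.tr b hb n b' hb' n'; ⟨g, ⟨h hg.1, hg.2⟩, e⟩, c.q4, c.jq⟩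

theorem Pq.symm {J Y T : Subgroup X} (p : Pq J Y T) : Pq J T Y :=
  ⟨p.pg, p.t, p.y, fun e => p.nc (cent_symm e), p.et, p.ey, p.jt, p.jy⟩

end CL.NZ
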